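import Cfsg.Agent.H455.ZeroTools
import Cfsg.Agent.H710.Spor.Ly

/-!
# S4895: the row of Ly (helper455)

Four columns (orders 18, 22, 22, 24) with centralizers of orders at most 18, 22, 22, 24 and 33 classes.
-/

set_option autoImplicit false
set_option linter.unusedSectionVars false

namespace Cfsg.Agent.H455.ZerosLy

open Cfsg Subgroup Equiv Cfsg.Agent.H504.Zeros Cfsg.Agent.H455.ZeroTools
open Cfsg.Agent.SporRec.TwoAn Cfsg.Agent.H710.Spor.Ly

/-! ### Permutations -/

def t33 := cyc 0 3 * cyc 3 3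
def t333 := cyc 0 3 * (cyc 3 3 * cyc 6 3)
def t55 := cyc 0 5 * cyc 5 5
def t12' : Perm (Fin 11) := cyc 0 3 * (cyc 3 3 * (swap 6 7 * swap 8 9))
def t8' : Perm (Fin 11) := cyc 0 4 * (swap 4 5 * (swap 6 7 * swap 8 9))
def t24' : Perm (Fin 11) := cyc 0 4 * (cyc 4 3 * swap 7 8)

theorem sgn' : Perm.sign t33 = 1 ∧ Perm.sign t333 = 1 ∧ Perm.sign t55 = 1 ∧ Perm.sign t12' = 1 ∧
    Perm.sign t8' = 1 ∧ Perm.sign t24' = 1 := by
  decide +kernel

theorem o33 : orderOf t33 = 3 := orderOf_of_hasOrd (by norm_num) (by decide +kernel)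
theorem o333 : orderOf t333 = 3 := orderOf_of_hasOrd (by norm_num) (by decide +kernel)
theorem o55 : orderOf t55 = 5 := orderOf_of_hasOrd (by norm_num) (by decide +kernel)
theorem o12' : orderOf t12' = 6 := orderOf_of_hasOrd (by norm_num) (by decide +kernel)
theorem o8' : orderOf t8' = 4 := orderOf_of_hasOrd (by norm_num) (by decide +kernel)
theorem o24' : orderOf t24' = 12 := orderOf_of_hasOrd (by norm_num) (by decide +kernel)

theorem p12' : t12' ^ 3 = swap 6 7 * swap 8 9 := by decide +kernel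
theorem p8' : t8' ^ 2 = swap 0 2 * swap 1 3 := by decide +kernel
theorem p24' : t24' ^ 6 = swap 0 2 * swap 1 3 := by decide +kernel

theorem ty : t3.cycleType ≠ t33.cycleType ∧ t3.cycleType ≠ t333.cycleType ∧ t33.cycleType ≠ t333.cycleType ∧
    t5.cycleType ≠ t55.cycleType ∧ t12.cycleType ≠ t12'.cycleType ∧ t8.cycleType ≠ t8'.cycleType ∧
    t24.cycleType ≠ t24'.cycleType := by
  decide +kernel

theorem type11 : t11.cycleType = {11} := by decide +kernel

theorem card11 : Nat.card (centralizer ({t11} : Set (Perm (Fin 11)))) = 11 := by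
  rw [Equiv.Perm.nat_card_centralizer, type11]
  decide

theorem t11_apply : ∀ i : Fin 11, t11 i = i + 1 := by decide +kernel

theorem sign_sub : ∀ a : Fin 11, Perm.sign (Equiv.subLeft a) = -1 := by decide +kernel

open Fin.CommRing in
/-- no even permutation inverts an 11-cycle -/
theorem not_inv {ρ : Perm (Fin 11)} (h : ρ * t11 * ρ⁻¹ = t11⁻¹) : ρ ∉ alternatingGroup (Fin 11) := by
  intro hρ
  have h1 : ρ * t11 = t11⁻¹ * ρ := by
    rw [← h]
    group
  have h2 : ∀ i : Fin 11, ρ (i + 1) = ρ i - 1 := by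
    intro i
    have h3 : (ρ * t11) i = (t11⁻¹ * ρ) i := by rw [h1]
    rw [Perm.mul_apply, Perm.mul_apply, t11_apply] at h3
    rw [h3, Perm.inv_eq_iff_eq, t11_apply, sub_add_cancel]
  have h4 : ∀ n : ℕ, ρ (n : Fin 11) = ρ 0 - n := by
    intro n
    induction n with
    | zero => simp
    | succ n ih =>
      rw [Nat.cast_succ, h2, ih]
      ring
  have h5 : ρ = Equiv.subLeft (ρ 0) := by
    ext i
    have h6 := h4 (i : ℕ)
    rw [Fin.cast_val_eq_self] at h6
    rw [h6]
    rfl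
  have h7 := Perm.mem_alternatingGroup.1 hρ
  rw [h5, sign_sub] at h7
  exact absurd h7 (by decide)

section mt

variable {G : Type*} [Group G] [Finite G] (L : Cfsg.Agent.TypeM.Two.MT 11 G)

/-- conjugate elements with a power equal to `t` have conjugate images -/
theorem exists_conj {y y' : centralizer ({L.t} : Set G)} {k : ℕ} (hk : y ^ k = L.K.z) (hk' : y' ^ k = L.K.z)
    (h : IsConj (y : G) (y' : G)) : ∃ c, c * y * c⁻¹ = y' := by
  obtain ⟨g, hg⟩ := isConj_iff.1 h
  have h1 : (y : G) ^ k = L.t := (congrArg Subtype.val hk).trans L.hz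
  have h2 : (y' : G) ^ k = L.t := (congrArg Subtype.val hk').trans L.hz
  have h3 : g * L.t * g⁻¹ = L.t := by
    rw [← h1, ← conj_pow, hg, h2, h1]
  have h4 : g ∈ centralizer ({L.t} : Set G) := mem_centralizer_singleton_iff.2 (mul_inv_eq_iff_eq_mul.1 h3)
  exact ⟨⟨g, h4⟩, Subtype.ext hg⟩

theorem not_conj {y y' : centralizer ({L.t} : Set G)} {k : ℕ} (hk : y ^ k = L.K.z) (hk' : y' ^ k = L.K.z)
    (hne : (L.K.π y).cycleType ≠ (L.K.π y').cycleType) : ¬ IsConj (y : G) (y' : G) := by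
  intro h
  obtain ⟨c, hc⟩ := exists_conj L hk hk' h
  apply hne
  rw [← hc, map_mul, map_mul, map_inv, Perm.cycleType_conj]

include L

theorem odd_elt {σ : Perm (Fin 11)} (hσ : Perm.sign σ = 1) {n : ℕ} (hn : Odd n) (ho : orderOf σ = n) :
    ∃ w : centralizer ({L.t} : Set G), L.K.π w = σ ∧ orderOf (w : G) = n * 2 ∧ w ^ n = L.K.z := by
  obtain ⟨y, hy, -, h1, h2⟩ := odd_orders L.K (Perm.mem_alternatingGroup.2 hσ) hn ho
  exact ⟨y * L.K.z, by rw [map_mul, L.K.π_z, mul_one, hy], by rw [Subgroup.orderOf_coe, h1], h2⟩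

theorem even_elt {σ : Perm (Fin 11)} (hσ : Perm.sign σ = 1) (n : ℕ)
    (a b c d : Fin 11) (hd : [a, b, c, d].Nodup) (h : σ ^ n = swap a b * swap c d)
    (ho : orderOf σ = n * 2) :
    ∃ w : centralizer ({L.t} : Set G), L.K.π w = σ ∧ orderOf (w : G) = n * 2 * 2 ∧ w ^ (n * 2) = L.K.z := by
  simp only [List.nodup_cons, List.mem_cons, List.not_mem_nil, or_false, not_or] at hd
  obtain ⟨y, h0, h1, h2⟩ := even_orders L.K (Perm.mem_alternatingGroup.2 hσ) hd.1.1 hd.1.2.1 hd.1.2.2
    hd.2.1.1 hd.2.1.2 hd.2.2.1 h ho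
  exact ⟨y, h0, by rw [Subgroup.orderOf_coe, h1], h2⟩

/-- two classes of elements of order 22 with centralizers of order at most 22 -/
theorem exists22 : ∃ w w' : G, orderOf w = 22 ∧ orderOf w' = 22 ∧ ¬ IsConj w w' ∧
    Nat.card (centralizer ({w} : Set G)) ≤ 22 ∧ Nat.card (centralizer ({w'} : Set G)) ≤ 22 := by
  obtain ⟨y, hy, h1, h2⟩ := odd_elt L sgn.2.2.2.2.1 (by decide) o11
  have hc : ∀ x : centralizer ({L.t} : Set G), x ^ 11 = L.K.z →
      Nat.card (centralizer ({L.K.π x} : Set (Perm (Fin 11)))) = 11 →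
      Nat.card (centralizer ({(x : G)} : Set G)) ≤ 22 := by
    intro x hx hx'
    refine (card_centralizer_le L hx).trans ?_
    rw [← Cfsg.Agent.CpAutLy.Cov.card_split L.K x]
    have h3 := Subgroup.card_dvd_of_le ((Cfsg.Agent.CpAutLy.Cov.map_le L.K x).trans inf_le_left)
    rw [hx'] at h3
    have h4 := Nat.le_of_dvd (by norm_num) h3
    omega
  have hinv : centralizer ({t11⁻¹} : Set (Perm (Fin 11))) = centralizer ({t11} : Set (Perm (Fin 11))) := by
    ext g
    rw [mem_centralizer_singleton_iff, mem_centralizer_singleton_iff]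
    exact ⟨fun h => ((Commute.inv_right_iff (a := g) (b := t11)).1 h).eq,
      fun h => ((Commute.inv_right_iff (a := g) (b := t11)).2 h).eq⟩
  have h2' : y⁻¹ ^ 11 = L.K.z := by rw [inv_pow, h2, L.K.z_inv]
  refine ⟨(y : G), ((y⁻¹ : centralizer ({L.t} : Set G)) : G), h1, ?_, ?_, hc y h2 ?_, hc _ h2' ?_⟩
  · rw [Subgroup.coe_inv, orderOf_inv, h1]
  · intro h
    obtain ⟨c, hc⟩ := exists_conj L h2 h2' h
    refine not_inv (ρ := L.K.π c) ?_ (L.K.mem_alternating c)
    rw [← hy, ← map_mul, ← map_inv, ← map_mul, hc, map_inv]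
  · rw [hy, card11]
  · rw [map_inv, hy, hinv, card11]

theorem list6 : ∃ l : List G, l.length = 3 ∧ (∀ x ∈ l, orderOf x = 6) ∧ l.Pairwise fun x y => ¬ IsConj x y := by
  obtain ⟨y, hy, h1, h2⟩ := odd_elt L sgn.1 (by decide) o3
  obtain ⟨y', hy', h1', h2'⟩ := odd_elt L sgn'.1 (by decide) o33
  obtain ⟨w, hw, h3, h4⟩ := odd_elt L sgn'.2.1 (by decide) o333
  exact three_list h1 h1' h3 (not_conj L h2 h2' (by rw [hy, hy']; exact ty.1))
    (not_conj L h2 h4 (by rw [hy, hw]; exact ty.2.1)) (not_conj L h2' h4 (by rw [hy', hw]; exact ty.2.2.1))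

theorem list10 : ∃ l : List G, l.length = 2 ∧ (∀ x ∈ l, orderOf x = 10) ∧ l.Pairwise fun x y => ¬ IsConj x y := by
  obtain ⟨y, hy, h1, h2⟩ := odd_elt L sgn.2.1 (by decide) o5
  obtain ⟨y', hy', h1', h2'⟩ := odd_elt L sgn'.2.2.1 (by decide) o55
  exact two_list h1 h1' (not_conj L h2 h2' (by rw [hy, hy']; exact ty.2.2.2.1))

theorem list12 : ∃ l : List G, l.length = 2 ∧ (∀ x ∈ l, orderOf x = 12) ∧ l.Pairwise fun x y => ¬ IsConj x y := by
  obtain ⟨y, hy, h1, h2⟩ := even_elt L (σ := t12) sgn.2.2.2.2.2.2.2.2.2.1 3 3 4 5 6 (by decide) p12 o12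
  obtain ⟨y', hy', h1', h2'⟩ := even_elt L (σ := t12') sgn'.2.2.2.1 3 6 7 8 9 (by decide) p12' o12'
  exact two_list h1 h1' (not_conj L h2 h2' (by rw [hy, hy']; exact ty.2.2.2.2.1))

theorem list8 : ∃ l : List G, l.length = 2 ∧ (∀ x ∈ l, orderOf x = 8) ∧ l.Pairwise fun x y => ¬ IsConj x y := by
  obtain ⟨y, hy, h1, h2⟩ := even_elt L (σ := t8) sgn.2.2.2.2.2.2.2.2.1 2 0 2 1 3 (by decide) p8 o8
  obtain ⟨y', hy', h1', h2'⟩ := even_elt L (σ := t8') sgn'.2.2.2.2.1 2 0 2 1 3 (by decide) p8' o8'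
  exact two_list h1 h1' (not_conj L h2 h2' (by rw [hy, hy']; exact ty.2.2.2.2.2.1))

theorem list24 : ∃ l : List G, l.length = 2 ∧ (∀ x ∈ l, orderOf x = 24) ∧ l.Pairwise fun x y => ¬ IsConj x y := by
  obtain ⟨y, hy, h1, h2⟩ := even_elt L (σ := t24) sgn.2.2.2.2.2.2.2.2.2.2.2.1 6 0 2 1 3 (by decide) p24 o24
  obtain ⟨y', hy', h1', h2'⟩ := even_elt L (σ := t24') sgn'.2.2.2.2.2 6 0 2 1 3 (by decide) p24' o24'
  exact two_list h1 h1' (not_conj L h2 h2' (by rw [hy, hy']; exact ty.2.2.2.2.2.2))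

end mt

/-- the element orders -/
def S : Finset ℕ := {1, 3, 5, 7, 9, 11, 15, 21, 2, 6, 10, 14, 18, 22, 30, 42, 4, 8, 12, 20, 24, 28, 40, 31, 37, 67}

def mult (n : ℕ) : ℕ := if n = 6 then 3 else if n ∈ ({8, 10, 12, 22, 24} : Finset ℕ) then 2 else 1

theorem card_classes : 31 ≤ Nat.card (ConjClasses Cfsg.Spor.Ly) := by
  classical
  have hfin : Finite Cfsg.Spor.Ly := Cfsg.Agent.Ly.Setup.finite_ly
  obtain ⟨L⟩ := Cfsg.Agent.TypeM.FactsLy.exists_mt_ly
  have hcard : Nat.card Cfsg.Spor.Ly = 51765179004000000 := Cfsg.Agent.Ly.Setup.card_ly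
  obtain ⟨t, ht, htc, -⟩ := exists_of_lists (G := Cfsg.Spor.Ly) S mult (by
    intro n hn
    by_cases h6 : n = 6
    · subst h6
      exact list6 L
    by_cases hm : n ∈ ({8, 10, 12, 22, 24} : Finset ℕ)
    · have hmn : mult n = 2 := by
        unfold mult
        rw [if_neg h6, if_pos hm]
      rw [hmn]
      simp only [Finset.mem_insert, Finset.mem_singleton] at hm
      rcases hm with rfl | rfl | rfl | rfl | rfl
      · exact list8 L
      · exact list10 L
      · exact list12 L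
      · obtain ⟨w, w', h1, h2, h3, -⟩ := exists22 L
        exact two_list h1 h2 h3
      · exact list24 L
    · have hmn : mult n = 1 := by
        unfold mult
        rw [if_neg h6, if_neg hm]
      rw [hmn]
      apply one_list
      by_cases h1 : n ∈ ({1, 3, 5, 7, 9, 11, 15, 21, 2, 6, 10, 14, 18, 22, 30, 42,
          4, 8, 12, 20, 24, 28, 40} : Finset ℕ)
      · exact exists_orders L n h1
      · have h2 : n = 31 ∨ n = 37 ∨ n = 67 := by
          unfold S at hn
          simp only [Finset.mem_insert, Finset.mem_singleton] at hn h1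
          tauto
        rcases h2 with rfl | rfl | rfl
        · have : Fact (Nat.Prime 31) := ⟨by norm_num⟩
          exact exists_prime_orderOf_dvd_card' 31 (by rw [hcard]; norm_num)
        · have : Fact (Nat.Prime 37) := ⟨by norm_num⟩
          exact exists_prime_orderOf_dvd_card' 37 (by rw [hcard]; norm_num)
        · have : Fact (Nat.Prime 67) := ⟨by norm_num⟩
          exact exists_prime_orderOf_dvd_card' 67 (by rw [hcard]; norm_num))
  have h1 : ∑ n ∈ S, mult n = 33 := by decide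
  rw [h1] at htc
  have hcl : Finite (ConjClasses Cfsg.Spor.Ly) := inferInstance
  have := Fintype.ofFinite (ConjClasses Cfsg.Spor.Ly)
  have h2 : (t.image ConjClasses.mk).card = t.card := Finset.card_image_of_injOn fun x hx y hy hxy =>
    ht x hx y hy (ConjClasses.mk_eq_mk_iff_isConj.1 hxy)
  have h3 := Finset.card_le_univ (t.image ConjClasses.mk)
  rw [h2, htc, ← Nat.card_eq_fintype_card] at h3
  omega

/-- **The row of Ly.** -/
theorem ly {S' : Type*} [Group S'] (h : Cfsg.Spor.IsoLy S') : Big S' := by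
  classical
  obtain ⟨e⟩ := h
  refine Big.of_equiv e ?_
  have hfin : Finite Cfsg.Spor.Ly := Cfsg.Agent.Ly.Setup.finite_ly
  obtain ⟨L⟩ := Cfsg.Agent.TypeM.FactsLy.exists_mt_ly
  obtain ⟨x, hx, hx'⟩ := exists18 L
  obtain ⟨y, hy, hy'⟩ := exists24 L
  obtain ⟨w, w', hw, hw', hc, hwc, hwc'⟩ := exists22 L
  have hne : ∀ {a b : Cfsg.Spor.Ly}, orderOf a ≠ orderOf b → a ≠ b ∧ ¬ IsConj a b ∧ ¬ IsConj b a := by
    intro a b hab
    have h1 : ¬ IsConj a b := fun h => hab (Cfsg.Agent.H710.VanCount.orderOf_eq_of_isConj h)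
    exact ⟨fun h => hab (by rw [h]), h1, fun h => h1 h.symm⟩
  have hww : w ≠ w' := fun h => hc (by rw [h])
  have hxw : orderOf x ≠ orderOf w := by rw [hx, hw]; norm_num
  have hxw' : orderOf x ≠ orderOf w' := by rw [hx, hw']; norm_num
  have hxy : orderOf x ≠ orderOf y := by rw [hx, hy]; norm_num
  have hyw : orderOf y ≠ orderOf w := by rw [hy, hw]; norm_num
  have hyw' : orderOf y ≠ orderOf w' := by rw [hy, hw']; norm_num
  have hcard : ({x, y, w, w'} : Finset Cfsg.Spor.Ly).card = 4 := by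
    rw [Finset.card_insert_of_notMem, Finset.card_insert_of_notMem, Finset.card_pair hww]
    · simp only [Finset.mem_insert, Finset.mem_singleton, not_or]
      exact ⟨(hne hyw).1, (hne hyw').1⟩
    · simp only [Finset.mem_insert, Finset.mem_singleton, not_or]
      exact ⟨(hne hxy).1, (hne hxw).1, (hne hxw').1⟩
  refine big_of_cols {x, y, w, w'} ?_ (fun g => nv g) (fun g _ => le_rfl) 31 card_classes (by rw [hcard]; norm_num) ?_
  · intro a ha b hb hab
    simp only [Finset.mem_insert, Finset.mem_singleton] at ha hb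
    rcases ha with rfl | rfl | rfl | rfl <;> rcases hb with rfl | rfl | rfl | rfl
    · rfl
    · exact absurd hab (hne hxy).2.1
    · exact absurd hab (hne hxw).2.1
    · exact absurd hab (hne hxw').2.1
    · exact absurd hab (hne hxy).2.2
    · rfl
    · exact absurd hab (hne hyw).2.1
    · exact absurd hab (hne hyw').2.1
    · exact absurd hab (hne hxw).2.2
    · exact absurd hab (hne hyw).2.2
    · rfl
    · exact absurd hab hc
    · exact absurd hab (hne hxw').2.2
    · exact absurd hab (hne hyw').2.2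
    · exact absurd hab.symm hc
    · rfl
  · rw [hcard, Finset.sum_insert, Finset.sum_insert, Finset.sum_pair hww]
    · have h1 := nv_le_card_centralizer x
      have h2 := nv_le_card_centralizer y
      have h3 := nv_le_card_centralizer w
      have h4 := nv_le_card_centralizer w'
      omega
    · simp only [Finset.mem_insert, Finset.mem_singleton, not_or]
      exact ⟨(hne hyw).1, (hne hyw').1⟩
    · simp only [Finset.mem_insert, Finset.mem_singleton, not_or]
      exact ⟨(hne hxy).1, (hne hxw).1, (hne hxw').1⟩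

end Cfsg.Agent.H455.ZerosLy
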